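import Mathlib
import Cfsg.Agent.Lib.Glaub.Ext
import Cfsg.Agent.Lib.Triple.Cover

/-! The Glauberman correspondence relative to a normal Sylow subgroup. -/

set_option autoImplicit false

namespace CfsgLib.Glaub

open Cfsg CfsgLib.Char CfsgLib.CharDeep CfsgLib.Triple Finset
open scoped ComplexConjugate

section tools

variable {G A : Type*} [Group G] [Group A] [Fintype G] {p : ℕ} [hp : Fact p.Prime]

/-- An invariant character has an invariant constituent on a normal subgroup of `p'`-index. -/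
theorem exists_inv_under_pgroup (hA : IsPGroup p A) (φ : A →* MulAut G) (N : Subgroup G)
    [N.Normal] [Fintype N] (hN : ∀ a, ∀ n ∈ N, φ a n ∈ N) (hpN : ¬ p ∣ N.index) {χ : G → ℂ}
    (hχ : IsIrrCharacter G χ) (hi : Inv φ χ) :
    ∃ θ, IsIrrCharacter N θ ∧ Inv (subAut φ N hN) θ ∧ mult N.subtype χ θ ≠ 0 := by
  classical
  obtain ⟨θ, hθ, h0⟩ := exists_irr_under N.subtype hχ
  have hc := isCharacter_of_isIrr hχ
  by_contra hcon
  push Not at hcon
  have h1 := congP_sum_irr hA (subAut φ N hN) (fun θ' => if mult N.subtype χ θ' ≠ 0 then 1 else 0)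
    (fun _ _ => by split_ifs; exacts [isIntegral_one, isIntegral_zero]) (by
      intro a θ' _
      have := mult_comp_aut N.subtype (φ a) (subAut φ N hN a) (fun _ => rfl) χ θ'
      simp only [hi a] at this
      simp only [this])
  rw [sum_eq_zero (s := (univ : Finset (InvIrr (subAut φ N hN))))
    (fun θ' _ => by rw [hcon _ θ'.1.2 θ'.2]; simp), sum_boole] at h1
  have h2 : (univ.filter fun θ' : IrrCharacter N => mult N.subtype χ θ' ≠ 0).card =
      (conjSet N θ).card := by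
    have h3 := (mult_ne_zero_iff N.subtype hc (isCharacter_of_isIrr hθ)).mp h0
    refine card_bij (fun θ' _ => (θ' : N → ℂ)) ?_ ?_ ?_
    · intro θ' h
      have h4 := (mult_ne_zero_iff N.subtype hc (irr_isCharacter θ')).mp (mem_filter.mp h).2
      exact (mem_conjSet N).mpr (clifford_conj N hχ hθ θ'.2 h3 h4)
    · intro a _ b _ h
      exact Subtype.ext h
    · intro θ' h
      obtain ⟨g, rfl⟩ := (mem_conjSet N).mp h
      refine ⟨⟨_, isIrr_conjChar N g hθ⟩, mem_filter.mpr ⟨mem_univ _, ?_⟩, rfl⟩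
      refine (mult_ne_zero_iff N.subtype hc (isCharacter_of_isIrr (isIrr_conjChar N g hθ))).mpr ?_
      have h4 := classInner_res_conjChar N g (isClassFunction_of_isIrr hχ) θ
      exact h4 ▸ h3
  rw [h2, card_conjSet, ← Nat.cast_zero, congP_nat_iff hp.out.ne_zero, Nat.cast_zero,
    ZMod.natCast_eq_zero_iff] at h1
  exact hpN (h1.trans (Subgroup.index_dvd_of_le (le_inertia N (isClassFunction_of_isIrr hθ))))

omit hp in
/-- Uniqueness of the Clifford correspondent. -/
theorem clifford_unique (N : Subgroup G) [N.Normal] [Fintype N] (T : Subgroup G) [Fintype T]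
    (hNT : N ≤ T) {θ : N → ℂ} (hθ : IsIrrCharacter N θ) (hT : T = inertia N θ) {χ : G → ℂ}
    (hχ : IsIrrCharacter G χ) {η η' : T → ℂ} (hη : IsIrrCharacter T η) (hη' : IsIrrCharacter T η')
    (h1 : mult (Subgroup.inclusion hNT) η θ ≠ 0) (h1' : mult (Subgroup.inclusion hNT) η' θ ≠ 0)
    (h2 : mult T.subtype χ η ≠ 0) (h2' : mult T.subtype χ η' ≠ 0) : η = η' := by
  have e1 := (mult_ne_zero_iff _ (isCharacter_of_isIrr hη) (isCharacter_of_isIrr hθ)).mp h1
  have e1' := (mult_ne_zero_iff _ (isCharacter_of_isIrr hη') (isCharacter_of_isIrr hθ)).mp h1'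
  have e2 := (mult_ne_zero_iff _ (isCharacter_of_isIrr hχ) (isCharacter_of_isIrr hη)).mp h2
  have e2' := (mult_ne_zero_iff _ (isCharacter_of_isIrr hχ) (isCharacter_of_isIrr hη')).mp h2'
  exact clifford_corr_inj N T hNT hθ hT hη hη' e1 e1'
    ((clifford_corr_key N T hNT hθ hT hη e1 hχ e2).1.trans
      (clifford_corr_key N T hNT hθ hT hη' e1' hχ e2').1.symm)

omit hp in
theorem clifford_exists (N : Subgroup G) [N.Normal] [Fintype N] (T : Subgroup G) [Fintype T]
    (hNT : N ≤ T) {θ : N → ℂ} (hθ : IsIrrCharacter N θ) (hT : T = inertia N θ) {χ : G → ℂ}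
    (hχ : IsIrrCharacter G χ) (h : mult N.subtype χ θ ≠ 0) :
    ∃ η, IsIrrCharacter T η ∧ indFun T η = χ ∧ mult (Subgroup.inclusion hNT) η θ ≠ 0 ∧
      mult T.subtype χ η = 1 := by
  have e1 := (mult_ne_zero_iff _ (isCharacter_of_isIrr hχ) (isCharacter_of_isIrr hθ)).mp h
  obtain ⟨η, hη, h1, h2⟩ := clifford_corr N T hNT hθ hT hχ e1
  refine ⟨η, hη, h1, (mult_ne_zero_iff _ (isCharacter_of_isIrr hη)
    (isCharacter_of_isIrr hθ)).mpr (h2 ▸ e1), mult_eq_of_eq _ ?_⟩
  have := classInner_indFun_right T η (isClassFunction_of_isIrr hχ)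
  rw [h1, classInner_irr_self hχ] at this
  rw [Nat.cast_one]
  exact this.symm

omit hp [Fintype G] in
theorem inertia_invariant (φ : A →* MulAut G) (N : Subgroup G) [N.Normal]
    (hN : ∀ a, ∀ n ∈ N, φ a n ∈ N) {θ : N → ℂ} (hi : Inv (subAut φ N hN) θ) (a : A) :
    ∀ g ∈ inertia N θ, φ a g ∈ inertia N θ := by
  intro g hg
  rw [mem_inertia'] at hg ⊢
  intro n
  rw [← hi a⁻¹ n, ← hg (subAut φ N hN a⁻¹ n), ← hi a⁻¹]
  refine congrArg θ (Subtype.ext ?_)
  simp only [subAut_coe]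
  simp

omit hp [Fintype G] in
theorem detOrder_comp_equiv [Finite G] {H : Type*} [Group H] (α : H ≃* G) {χ : G → ℂ}
    (hχ : IsIrrCharacter G χ) : detOrder (fun h => χ (α h)) ∣ detOrder χ := by
  have : Finite H := Finite.of_equiv _ α.symm.toEquiv
  refine orderOf_dvd_of_pow_eq_one (funext fun h => ?_)
  rw [Pi.pow_apply, ← detChar_comp α.toMonoidHom (isCharacter_of_isIrr hχ)
    (isIrr_comp_mulEquiv α hχ) (fun _ => rfl), ← Pi.pow_apply, detOrder, pow_orderOf_eq_one]
  rfl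

omit hp [Fintype G] in
/-- An invariant extension over a normal Hall subgroup. -/
theorem exists_inv_extension [Finite G] (φ : A →* MulAut G) (N : Subgroup G) [N.Normal]
    (hN : ∀ a, ∀ n ∈ N, φ a n ∈ N) (hcop : (Nat.card N).Coprime N.index) {θ : N → ℂ}
    (hθ : IsIrrCharacter N θ) (hinv : ∀ (g : G) (n : N), θ (cj N g n) = θ n)
    (hi : Inv (subAut φ N hN) θ) :
    ∃ E, IsIrrCharacter G E ∧ (∀ n : N, E n = θ n) ∧ Inv φ E := by
  obtain ⟨E, ⟨h1, h2, h3⟩, h4⟩ := exists_canonical_of_coprime N hcop hθ hinv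
  refine ⟨E, h1, h2, fun a => congrFun (h4 _ (isIrr_comp_mulEquiv (φ a) h1) (fun n => ?_) ?_)⟩
  · rw [← hi a n, ← h2]; rfl
  · exact (hcop.symm.coprime_dvd_right (detOrder_dvd_card θ)).coprime_dvd_right
      (h3 ▸ detOrder_comp_equiv (φ a) h1)

end tools

section third

variable {G A : Type*} [Group G] [Group A] [Fintype G] {p : ℕ} [hp : Fact p.Prime]

/-- Third congruence over an invariant character with an invariant extension. -/
theorem third_cong_ext (hA : IsPGroup p A) (φ : A →* MulAut G) (N : Subgroup G) [N.Normal]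
    [Fintype N] (hN : ∀ a, ∀ n ∈ N, φ a n ∈ N) (hpN : ¬ p ∣ N.index) {C : Type*} [Group C]
    [Fintype C] (ι : C →* G) (hι : Function.Injective ι)
    (hfix : ∀ g, g ∈ ι.range ↔ ∀ a, φ a g * g⁻¹ ∈ N) {E : G → ℂ} (hE : IsCharacter G E)
    (hEN : IsIrrCharacter N (fun n : N => E n)) (hEi : Inv φ E)
    {χ χ' : G → ℂ} (hχ : IsIrrCharacter G χ) (hχ' : IsIrrCharacter G χ') (hi : Inv φ χ)
    (hi' : Inv φ χ') (hne : χ ≠ χ') (h : mult N.subtype χ (fun n : N => E n) ≠ 0)
    (h' : mult N.subtype χ' (fun n : N => E n) ≠ 0) {γ : C → ℂ} (hγ : IsIrrCharacter C γ) :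
    (mult ι χ γ : ZMod p) * mult ι χ' γ = 0 := by
  classical
  by_cases h0 : mult ι χ γ = 0
  · rw [h0, Nat.cast_zero, zero_mul]
  have hNC := le_range_of_fix hN hfix
  let q := QuotientGroup.mk' N
  have hq : Function.Surjective q := QuotientGroup.mk'_surjective N
  have hEq : IsIrrCharacter q.ker (fun n => E n) := by rw [QuotientGroup.ker_mk']; exact hEN
  have down : ∀ {χ : G → ℂ}, IsIrrCharacter G χ → Inv φ χ →
      mult N.subtype χ (fun n : N => E n) ≠ 0 → ∃ β, IsIrrCharacter (G ⧸ N) β ∧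
        Inv (quotAut φ N hN) β ∧ ∀ x, χ x = β (q x) * E x := by
    intro χ hχ hi h
    have h1 := (mult_ne_zero_iff _ (isCharacter_of_isIrr hχ) (isCharacter_of_isIrr hEN)).mp h
    obtain ⟨β, hβ, hβN, h2⟩ := gallagher_surj N hE hEN hχ h1
    obtain ⟨β', hβ', h3⟩ := exists_irr_quotient N hβ hβN
    have h4 : ∀ x, χ x = β' (q x) * E x := fun x => by rw [h2, Pi.mul_apply, ← h3]; rfl
    refine ⟨β', hβ', fun a => congrFun (span_unique q hq hE hEq fun x => ?_), h4⟩
    rw [← h4, ← hi a x, h4, hEi a x]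
    rfl
  obtain ⟨β, hβ, hβi, hβχ⟩ := down hχ hi h
  obtain ⟨β', hβ', hβi', hβχ'⟩ := down hχ' hi' h'
  let D := fixSub (quotAut φ N hN)
  have hmem : ∀ g : G, q g ∈ D ↔ g ∈ ι.range := by
    intro g
    rw [hfix, mem_fixSub]
    refine forall_congr' fun a => ?_
    change ((φ a g : G) : G ⧸ N) = g ↔ _
    rw [eq_comm, QuotientGroup.eq, Subgroup.Normal.mem_comm_iff inferInstance]
  let q' : C →* D := (q.comp ι).codRestrict D fun c => (hmem _).mpr ⟨c, rfl⟩
  have hq' : Function.Surjective q' := by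
    rintro ⟨x, hx⟩
    obtain ⟨g, rfl⟩ := hq x
    obtain ⟨c, rfl⟩ := (hmem g).mp hx
    exact ⟨c, rfl⟩
  have hk : ∀ c : C, c ∈ q'.ker ↔ ι c ∈ N := fun c =>
    ⟨fun h => (QuotientGroup.eq_one_iff _).mp (congrArg Subtype.val h),
      fun h => Subtype.ext ((QuotientGroup.eq_one_iff _).mpr h)⟩
  let e : q'.ker ≃* N := MulEquiv.ofBijective
    ((ι.comp q'.ker.subtype).codRestrict N fun c => (hk _).mp c.2)
    ⟨fun a b h => Subtype.ext (hι (congrArg Subtype.val h)), fun n => by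
      obtain ⟨c, hc⟩ := hNC n.2
      exact ⟨⟨c, (hk c).mpr (hc ▸ n.2)⟩, Subtype.ext hc⟩⟩
  have hE' := isCharacter_comp ι hE
  have hEq' : IsIrrCharacter q'.ker (fun n => E (ι n)) := isIrr_comp_mulEquiv e hEN
  -- `γ` lies over `E`
  obtain ⟨θ, hθ, h1⟩ := exists_irr_under q'.ker.subtype hγ
  have h2 := (mult_ne_zero_iff _ (isCharacter_of_isIrr hχ) (isCharacter_of_isIrr hθ)).mp
    (mult_comp_ne_zero ι q'.ker.subtype (isCharacter_of_isIrr hχ) hγ (isCharacter_of_isIrr hθ) h0 h1)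
  have h3 : (fun c : q'.ker => χ ((ι.comp q'.ker.subtype) c)) = β 1 • fun n : q'.ker => E (ι n) := by
    funext c
    have : q (ι c) = 1 := congrArg Subtype.val c.2
    change χ (ι c) = β 1 * E (ι c)
    rw [hβχ, this]
  rw [h3, classInner_smul_left] at h2
  have h4 := irr_eq_of_classInner_ne_zero hEq' hθ (right_ne_zero_of_mul h2)
  have h5 := (mult_ne_zero_iff _ (isCharacter_of_isIrr hγ) (isCharacter_of_isIrr hθ)).mp h1
  rw [← h4] at h5
  obtain ⟨δ, hδ, hδN, h6⟩ := gallagher_surj q'.ker hE' hEq' hγ h5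
  obtain ⟨δ', hδ', h7⟩ := exists_irr_comp_eq q' hq' hδ (fun g hg => hδN g hg)
  have h8 : ∀ {χ : G → ℂ} {β : G ⧸ N → ℂ}, (∀ x, χ x = β (q x) * E x) →
      mult ι χ γ = mult D.subtype β δ' := by
    intro χ β hβχ
    unfold mult
    rw [← classInner_mul_ext q' hq' hE' hEq' (fun c => β (D.subtype c)) δ']
    congr 3
    · funext c; exact hβχ _
    · funext c; rw [h6, h7]; rfl
  rw [h8 hβχ, h8 hβχ']
  exact third_cong hA (quotAut φ N hN) hpN D.subtype D.subtype_injective
    (by simp [D, mem_fixSub]) hβ hβ' hβi hβi'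
    (fun h => hne (funext fun x => by rw [hβχ, hβχ', h])) hδ'

/-- Third congruence relative to a normal Hall subgroup of `p'`-index. -/
theorem third_cong_hall (hA : IsPGroup p A) (φ : A →* MulAut G) (N : Subgroup G) [N.Normal]
    (hN : ∀ a, ∀ n ∈ N, φ a n ∈ N) (hpN : ¬ p ∣ N.index) (hcop : (Nat.card N).Coprime N.index)
    (C : Subgroup G) [Fintype C] (hfix : ∀ g, g ∈ C ↔ ∀ a, φ a g * g⁻¹ ∈ N)
    (hC : ∀ a, ∀ n ∈ C, φ a n ∈ C)
    {χ χ' : G → ℂ} (hχ : IsIrrCharacter G χ) (hχ' : IsIrrCharacter G χ') (hi : Inv φ χ)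
    (hi' : Inv φ χ') (hne : χ ≠ χ') {ξ : C → ℂ} (hξ : IsIrrCharacter C ξ)
    (hξi : Inv (subAut φ C hC) ξ) :
    (mult C.subtype χ ξ : ZMod p) * mult C.subtype χ' ξ = 0 := by
  classical
  by_cases h0 : mult C.subtype χ ξ = 0
  · rw [h0, Nat.cast_zero, zero_mul]
  by_cases h0' : mult C.subtype χ' ξ = 0
  · rw [h0', Nat.cast_zero, mul_zero]
  have hNC : N ≤ C := fun n hn => (hfix n).mpr fun a => N.mul_mem (hN a n hn) (N.inv_mem hn)
  obtain ⟨θ', hθ', hθ'i, h1⟩ := exists_inv_under_pgroup hA (subAut φ C hC) (N.subgroupOf C)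
    (fun a n hn => hN a n hn)
    (fun h => hpN (h.trans (Subgroup.relIndex_dvd_index_of_le hNC))) hξ hξi
  let e : N.subgroupOf C ≃* N := Subgroup.subgroupOfEquivOfLe hNC
  let θ : N → ℂ := fun n => θ' (e.symm n)
  have hθ : IsIrrCharacter N θ := isIrr_comp_mulEquiv e.symm hθ'
  have hθi : Inv (subAut φ N hN) θ := fun a n => hθ'i a (e.symm n)
  let T := inertia N θ
  have hNT : N ≤ T := le_inertia N (isClassFunction_of_isIrr hθ)
  have hTφ := inertia_invariant φ N hN hθi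
  have hT' : T.subgroupOf C = inertia (N.subgroupOf C) θ' := by
    ext g
    rw [Subgroup.mem_subgroupOf, mem_inertia', mem_inertia']
    exact ⟨fun h n => h (e n), fun h n => h (e.symm n)⟩
  have hNT' : N.subgroupOf C ≤ T.subgroupOf C := fun n hn => hNT hn
  obtain ⟨γ, hγ, hγξ, hγθ, -⟩ := clifford_exists (N.subgroupOf C) (T.subgroupOf C) hNT' hθ' hT' hξ h1
  let k : T.subgroupOf C →* T := (C.subtype.comp (T.subgroupOf C).subtype).codRestrict T
    fun x => x.2
  have hmul : ∀ {H : Type _} [Group H] (f : N →* H) (η : H → ℂ),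
      mult (f.comp e.toMonoidHom) η θ' = mult f η θ := by
    intro H _ f η
    unfold mult
    rw [← classInner_comp_mulEquiv e (fun c => η (f c)) θ]
    rfl
  have down : ∀ {χ : G → ℂ}, IsIrrCharacter G χ → Inv φ χ → mult C.subtype χ ξ ≠ 0 →
      ∃ η, IsIrrCharacter T η ∧ indFun T η = χ ∧ Inv (subAut φ T hTφ) η ∧
        mult (Subgroup.inclusion hNT) η θ ≠ 0 ∧ mult C.subtype χ ξ = mult k η γ := by
    intro χ hχ hi h0
    have h2 := mult_comp_ne_zero C.subtype (N.subgroupOf C).subtype (isCharacter_of_isIrr hχ) hξ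
      (isCharacter_of_isIrr hθ') h0 h1
    have h3 : mult N.subtype χ θ ≠ 0 := by rw [← hmul]; exact h2
    obtain ⟨η, hη, h4, h5, h6⟩ := clifford_exists N T hNT hθ rfl hχ h3
    refine ⟨η, hη, h4, fun a => congrFun (clifford_unique N T hNT hθ rfl hχ
      (isIrr_comp_mulEquiv (subAut φ T hTφ a) hη) hη ?_ h5 ?_ (by rw [h6]; exact one_ne_zero)),
      h5, ?_⟩
    · have := mult_comp_aut (Subgroup.inclusion hNT) (subAut φ T hTφ a) (subAut φ N hN a)
        (fun _ => rfl) η θ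
      simp only [hθi a] at this
      rw [this]; exact h5
    · have := mult_comp_aut T.subtype (φ a) (subAut φ T hTφ a) (fun _ => rfl) χ η
      simp only [hi a] at this
      rw [this, h6]; exact one_ne_zero
    · have h7 : mult C.subtype χ ξ = mult (T.subtype.comp k) χ γ := by
        unfold mult
        rw [← hγξ, classInner_indFun_right _ _
          (isClassFunction_comp C.subtype (isClassFunction_of_isIrr hχ))]
        rfl
      rw [h7, mult_comp T.subtype k (isCharacter_of_isIrr hχ) (isCharacter_of_isIrr hγ),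
        sum_eq_single (⟨η, hη⟩ : IrrCharacter T) _ (by simp), h6, one_mul]
      intro η' _ hne
      by_contra h8
      apply hne
      refine Subtype.ext (clifford_unique N T hNT hθ rfl hχ η'.2 hη ?_ h5 (left_ne_zero_of_mul h8)
        (by rw [h6]; exact one_ne_zero))
      rw [← hmul]
      exact mult_comp_ne_zero k (Subgroup.inclusion hNT') (irr_isCharacter η') hγ
        (isCharacter_of_isIrr hθ') (right_ne_zero_of_mul h8) hγθ
  obtain ⟨η, hη, hηχ, hηi, hηθ, hm⟩ := down hχ hi h0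
  obtain ⟨η', hη', hηχ', hηi', hηθ', hm'⟩ := down hχ' hi' h0'
  rw [hm, hm']
  let e' : N.subgroupOf T ≃* N := Subgroup.subgroupOfEquivOfLe hNT
  obtain ⟨E, hE, hEN, hEi⟩ := exists_inv_extension (subAut φ T hTφ) (N.subgroupOf T)
    (fun a n hn => hN a n hn) (by
      rw [Nat.card_congr e'.toEquiv]
      exact hcop.coprime_dvd_right (Subgroup.relIndex_dvd_index_of_le hNT))
    (isIrr_comp_mulEquiv e' hθ) (fun g n => (mem_inertia' N).mp g.2 (e' n))
    (fun a n => hθi a (e' n))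
  have hmul' : ∀ η : T → ℂ, mult (N.subgroupOf T).subtype η (fun n => E n) =
      mult (Subgroup.inclusion hNT) η θ := by
    intro η
    unfold mult
    rw [← classInner_comp_mulEquiv e' _ θ, funext hEN]
    rfl
  refine third_cong_ext hA (subAut φ T hTφ) (N.subgroupOf T) (fun a n hn => hN a n hn)
    (fun h => hpN (h.trans (Subgroup.relIndex_dvd_index_of_le hNT))) k
    (fun a b h => Subtype.ext (Subtype.ext (congrArg (fun x : T => (x : G)) h))) ?_
    (isCharacter_of_isIrr hE) (by rw [funext hEN]; exact isIrr_comp_mulEquiv e' hθ) hEi hη hη'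
    hηi hηi' (fun h => hne (by rw [← hηχ, ← hηχ', h])) (by rw [hmul']; exact hηθ)
    (by rw [hmul']; exact hηθ') hγ
  intro g
  constructor
  · rintro ⟨c, rfl⟩ a
    exact (hfix _).mp c.1.2 a
  · intro h
    exact ⟨⟨⟨g, (hfix _).mpr h⟩, g.2⟩, rfl⟩

/-- The Glauberman correspondence relative to a normal Hall subgroup of `p'`-index. -/
theorem glauberman_hall (hA : IsPGroup p A) (φ : A →* MulAut G) (N : Subgroup G) [N.Normal]
    (hN : ∀ a, ∀ n ∈ N, φ a n ∈ N) (hpN : ¬ p ∣ N.index) (hcop : (Nat.card N).Coprime N.index)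
    {C : Type*} [Group C] [Fintype C] (ι : C →* G) (hι : Function.Injective ι)
    (hfix : ∀ g, g ∈ ι.range ↔ ∀ a, φ a g * g⁻¹ ∈ N) (ψ : A →* MulAut C)
    (hψ : ∀ a c, ι (ψ a c) = φ a (ι c)) :
    ∃ e : InvIrr φ ≃ InvIrr ψ, ∀ χ ξ,
      (ξ = e χ → (mult ι χ.1 ξ.1 : ZMod p) = 1 ∨ (mult ι χ.1 ξ.1 : ZMod p) = -1) ∧
      (ξ ≠ e χ → p ∣ mult ι χ.1 ξ.1) := by
  classical
  refine exists_equiv_of_third hA φ N hN hpN ι hι hfix ψ hψ fun χ χ' ξ hne => ?_
  have hC : ∀ a, ∀ n ∈ ι.range, φ a n ∈ ι.range := by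
    rintro a _ ⟨c, rfl⟩
    exact ⟨ψ a c, hψ a c⟩
  rw [mult_eq_mult_range ι hι, mult_eq_mult_range ι hι]
  refine third_cong_hall hA φ N hN hpN hcop ι.range hfix hC χ.1.2 χ'.1.2 χ.2 χ'.2
    (fun h => hne (Subtype.ext (Subtype.ext h)))
    (isIrr_comp_mulEquiv (MonoidHom.ofInjective hι).symm ξ.1.2) ?_
  intro a x
  obtain ⟨c, rfl⟩ := (MonoidHom.ofInjective hι).surjective x
  have : subAut φ ι.range hC a (MonoidHom.ofInjective hι c) = MonoidHom.ofInjective hι (ψ a c) :=
    Subtype.ext (hψ a c).symm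
  simp only [this, MulEquiv.symm_apply_apply, ξ.2 a]

omit [Fintype G] in
/-- Degrees modulo `p` only see invariant constituents. -/
theorem degree_cong (hA : IsPGroup p A) (φ : A →* MulAut G) {C : Type*} [Group C] [Fintype C]
    (ι : C →* G) (ψ : A →* MulAut C) (hψ : ∀ a c, ι (ψ a c) = φ a (ι c)) [Fintype (InvIrr ψ)]
    {χ : G → ℂ} (hχ : IsCharacter G χ) (hi : Inv φ χ) :
    (charDegree χ : ZMod p) = ∑ ξ : InvIrr ψ, (mult ι χ ξ.1 : ZMod p) * charDegree (ξ.1 : C → ℂ) := by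
  have h1 := res_eq_sum_mult ι hχ 1
  have h2 := congP_sum_irr hA ψ (fun β => ((mult ι χ β * charDegree β : ℕ) : ℂ))
    (fun _ _ => isIntegral_natCast _) (by
      intro a β _
      have := mult_comp_aut ι (φ a) (ψ a) (hψ a) χ β
      simp only [hi a] at this
      rw [this]
      simp [charDegree])
  have h3 : ∑ β : IrrCharacter C, ((mult ι χ β * charDegree (β : C → ℂ) : ℕ) : ℂ) =
      (charDegree χ : ℕ) := by
    rw [ChDeg.deg_cast hχ, ← map_one ι, h1]
    exact sum_congr rfl fun β _ => by push_cast; rw [ChDeg.irr_deg_cast]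
  rw [h3, ← Nat.cast_sum, congP_nat_iff hp.out.ne_zero] at h2
  rw [h2]; push_cast; rfl

end third

end CfsgLib.Glaub
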